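import Mathlib.AlgebraicGeometry.FunctionField
import Mathlib.Topology.Sheaves.SheafCondition.UniqueGluing

/-!
# The domain of definition of a rational function
-/

set_option autoImplicit false
set_option linter.style.haveILetI false
universe u

open CategoryTheory AlgebraicGeometry TopologicalSpace Opposite

namespace Groth.Agent.Pi1.H389.Dom

variable {X : Scheme.{u}} [IsIntegral X]

/-- The largest open subset where the rational function `g` is regular, and the section defined by `g`. -/
theorem exists_dom (g : X.functionField) : ∃ (W : X.Opens) (hη : genericPoint X ∈ W) (a : Γ(X, W)),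
    X.presheaf.germ W (genericPoint X) hη a = g ∧
    ∀ x : X, (∃ r : X.presheaf.stalk x, algebraMap (X.presheaf.stalk x) X.functionField r = g) → x ∈ W := by
  let I := {U : X.Opens // ∃ (h : genericPoint X ∈ U) (a : Γ(X, U)), X.presheaf.germ U (genericPoint X) h a = g}
  let U : I → X.Opens := fun i => i.1
  have hU : ∀ i : I, genericPoint X ∈ U i := fun i => i.2.choose
  let sf : ∀ i : I, Γ(X, U i) := fun i => i.2.choose_spec.choose
  have hsf : ∀ i : I, X.presheaf.germ (U i) (genericPoint X) (hU i) (sf i) = g := fun i =>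
    i.2.choose_spec.choose_spec
  have hcomp : TopCat.Presheaf.IsCompatible X.sheaf.1 U sf := by
    intro i j
    apply germ_injective_of_isIntegral X (genericPoint X) (U := U i ⊓ U j) ⟨hU i, hU j⟩
    refine Eq.trans ?_ (Eq.trans ((hsf i).trans (hsf j).symm) ?_)
    · exact X.presheaf.germ_res_apply (homOfLE inf_le_left) (genericPoint X) ⟨hU i, hU j⟩ (sf i)
    · exact (X.presheaf.germ_res_apply (homOfLE inf_le_right) (genericPoint X) ⟨hU i, hU j⟩ (sf j)).symm
  obtain ⟨a, ha, -⟩ := X.sheaf.existsUnique_gluing U sf hcomp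
  obtain ⟨i₀⟩ : Nonempty I := by
    obtain ⟨V, hV, r, hr⟩ := X.presheaf.exists_germ_eq g
    exact ⟨⟨V, hV, r, hr⟩⟩
  refine ⟨iSup U, (le_iSup U i₀) (hU i₀), a, ?_, ?_⟩
  · rw [← hsf i₀, ← ha i₀]
    exact (X.presheaf.germ_res_apply (homOfLE (le_iSup U i₀)) (genericPoint X) (hU i₀) a).symm
  · rintro x ⟨r, hr⟩
    obtain ⟨V, hV, r, rfl⟩ := X.presheaf.exists_germ_eq r
    have hη : genericPoint X ∈ V := (genericPoint_specializes x).mem_open V.isOpen hV
    refine (le_iSup U ⟨V, hη, r, ?_⟩) hV
    rw [← hr]
    exact (TopCat.Presheaf.germ_stalkSpecializes_apply X.presheaf hV (genericPoint_specializes x) r).symm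

/-- The value of a section in the function field. -/
theorem algebraMap_germ {U : X.Opens} (hη : genericPoint X ∈ U) {x : X} (hx : x ∈ U) (a : Γ(X, U)) :
    algebraMap (X.presheaf.stalk x) X.functionField (X.presheaf.germ U x hx a) =
      X.presheaf.germ U (genericPoint X) hη a :=
  TopCat.Presheaf.germ_stalkSpecializes_apply X.presheaf hx (genericPoint_specializes x) a

end Groth.Agent.Pi1.H389.Dom
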