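import Groth.Agent.CycB.C1Basic
import Mathlib.RingTheory.DiscreteValuationRing.Basic
import Mathlib.RingTheory.OrderOfVanishing.Noetherian
import Mathlib.RingTheory.Derivation.Basic

/-!
# The order function of a discrete valuation ring and derivations

`R` a discrete valuation ring with fraction field `K`.  Every nonzero `g ∈ K` is `u π ^ n` with `n` the
order `CycAlg.ordFrac R K g`.
-/

set_option autoImplicit false
universe u

namespace Groth.Agent.Pi1.H389.DvrOrd

open IsLocalRing Groth.Agent.CycB.C1Basic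

variable {R : Type u} [CommRing R] [IsDomain R] [IsDiscreteValuationRing R]
  {K : Type u} [Field K] [Algebra R K] [IsFractionRing R K]

theorem ord_irreducible {π : R} (hπ : Irreducible π) : CycAlg.ordFrac R K (algebraMap R K π) = 1 := by
  rw [ordFrac_algebraMap R K hπ.ne_zero]
  have h1 : Ring.ord R π = 1 := by
    unfold Ring.ord
    rw [← hπ.maximalIdeal_eq]
    have : IsSimpleModule R (R ⧸ maximalIdeal R) :=
      isSimpleModule_iff_quot_maximal.mpr ⟨maximalIdeal R, inferInstance, ⟨LinearEquiv.refl _ _⟩⟩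
    exact Module.length_eq_one_iff.mpr this
  rw [h1]
  rfl

theorem ord_zpow {π : R} (hπ : Irreducible π) (n : ℤ) :
    CycAlg.ordFrac R K (algebraMap R K π ^ n) = n := by
  have hne : algebraMap R K π ≠ 0 := by
    rw [ne_eq, IsFractionRing.to_map_eq_zero_iff]; exact hπ.ne_zero
  have hnat : ∀ m : ℕ, CycAlg.ordFrac R K (algebraMap R K π ^ m) = m := by
    intro m
    induction m with
    | zero => rw [pow_zero, ordFrac_one]; rfl
    | succ m ih => rw [pow_succ, ordFrac_mul R K (pow_ne_zero _ hne) hne, ih, ord_irreducible hπ]; rfl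
  obtain ⟨m, rfl | rfl⟩ := n.eq_nat_or_neg
  · rw [zpow_natCast, hnat]
  · rw [zpow_neg, zpow_natCast, ordFrac_inv R K (pow_ne_zero _ hne), hnat]

theorem exists_unit_zpow {π : R} (hπ : Irreducible π) {g : K} (hg : g ≠ 0) :
    ∃ (u : Rˣ), g = algebraMap R K u * algebraMap R K π ^ (CycAlg.ordFrac R K g) := by
  have hne : algebraMap R K π ≠ 0 := by
    rw [ne_eq, IsFractionRing.to_map_eq_zero_iff]; exact hπ.ne_zero
  obtain ⟨a, b, hb, rfl⟩ := IsFractionRing.div_surjective (A := R) g
  have ha0 : a ≠ 0 := by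
    rintro rfl
    exact hg (by rw [map_zero, zero_div])
  have hb0 : b ≠ 0 := nonZeroDivisors.ne_zero hb
  obtain ⟨i, u, rfl⟩ := IsDiscreteValuationRing.eq_unit_mul_pow_irreducible ha0 hπ
  obtain ⟨j, v, rfl⟩ := IsDiscreteValuationRing.eq_unit_mul_pow_irreducible hb0 hπ
  have hv : algebraMap R K (v : R) * algebraMap R K ((v⁻¹ : Rˣ) : R) = 1 := by
    rw [← map_mul, Units.mul_inv, map_one]
  have hv0 : algebraMap R K (v : R) ≠ 0 := left_ne_zero_of_mul_eq_one hv
  have h1 : algebraMap R K ((u : R) * π ^ i) / algebraMap R K ((v : R) * π ^ j) =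
      algebraMap R K ((u * v⁻¹ : Rˣ) : R) * algebraMap R K π ^ ((i : ℤ) - (j : ℤ)) := by
    rw [div_eq_iff (by rw [map_mul, map_pow]; exact mul_ne_zero hv0 (pow_ne_zero _ hne)),
      map_mul, map_mul, map_pow, map_pow, Units.val_mul, map_mul, zpow_sub₀ hne, zpow_natCast, zpow_natCast]
    have hq : algebraMap R K π ^ i / algebraMap R K π ^ j * algebraMap R K π ^ j =
        algebraMap R K π ^ i := div_mul_cancel₀ _ (pow_ne_zero _ hne)
    linear_combination (-(algebraMap R K (u : R)) * (algebraMap R K π ^ i / algebraMap R K π ^ j) *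
      algebraMap R K π ^ j) * hv - algebraMap R K (u : R) * hq
  rw [h1]
  refine ⟨u * v⁻¹, ?_⟩
  congr 2
  rw [ordFrac_mul R K _ (zpow_ne_zero _ hne), ord_zpow hπ, ordFrac_algebraMap_of_isUnit, zero_add]
  · exact Units.isUnit _
  · rw [ne_eq, IsFractionRing.to_map_eq_zero_iff]; exact Units.ne_zero _

/-- the sign of the order detects membership in the maximal ideal -/
theorem mem_of_ord_nonneg {g : K} (h : g = 0 ∨ 0 ≤ CycAlg.ordFrac R K g) : ∃ r : R, algebraMap R K r = g := by
  obtain ⟨π, hπ⟩ := IsDiscreteValuationRing.exists_irreducible R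
  by_cases hg : g = 0
  · exact ⟨0, by rw [hg, map_zero]⟩
  obtain ⟨u, hu⟩ := exists_unit_zpow (K := K) hπ hg
  have h0 : 0 ≤ CycAlg.ordFrac R K g := h.resolve_left hg
  obtain ⟨m, hm⟩ := Int.eq_ofNat_of_zero_le h0
  refine ⟨u * π ^ m, ?_⟩
  rw [hu, hm, map_mul, map_pow]
  exact congrArg _ (zpow_natCast _ _).symm

theorem ord_nonneg (r : R) : 0 ≤ CycAlg.ordFrac R K (algebraMap R K r) := by
  by_cases hr : r = 0
  · rw [hr, map_zero, ordFrac_zero]
  · rw [ordFrac_algebraMap R K hr]
    exact Int.natCast_nonneg _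

theorem ord_pos_iff {r : R} (hr : r ≠ 0) :
    0 < CycAlg.ordFrac R K (algebraMap R K r) ↔ r ∈ maximalIdeal R := by
  constructor
  · intro h
    by_contra hcon
    rw [mem_maximalIdeal, mem_nonunits_iff, not_not] at hcon
    rw [ordFrac_algebraMap_of_isUnit R K hcon] at h
    exact lt_irrefl _ h
  · intro h
    obtain ⟨π, hπ⟩ := IsDiscreteValuationRing.exists_irreducible R
    rw [hπ.maximalIdeal_eq, Ideal.mem_span_singleton] at h
    obtain ⟨s, rfl⟩ := h
    have hs : s ≠ 0 := right_ne_zero_of_mul hr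
    have h1 : algebraMap R K π ≠ 0 := by
      rw [ne_eq, IsFractionRing.to_map_eq_zero_iff]; exact hπ.ne_zero
    have h2 : algebraMap R K s ≠ 0 := by
      rw [ne_eq, IsFractionRing.to_map_eq_zero_iff]; exact hs
    rw [map_mul, ordFrac_mul R K h1 h2, ord_irreducible hπ]
    have := ord_nonneg (K := K) s
    omega

/-- adding a unit of `R` to an element of positive order gives order zero -/
theorem ord_add_unit {g : K} (hg : 0 < CycAlg.ordFrac R K g) {r : R} (hr : IsUnit r) :
    CycAlg.ordFrac R K (g + algebraMap R K r) = 0 := by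
  obtain ⟨a, rfl⟩ := mem_of_ord_nonneg (R := R) (Or.inr hg.le)
  have ha : a ∈ maximalIdeal R := by
    by_cases h0 : a = 0
    · rw [h0]; exact zero_mem _
    · exact (ord_pos_iff h0).mp hg
  rw [← map_add]
  refine ordFrac_algebraMap_of_isUnit R K ?_
  by_contra hcon
  have h1 : a + r ∈ maximalIdeal R := (mem_maximalIdeal _).mpr hcon
  have h2 : r ∈ maximalIdeal R := by
    have := sub_mem h1 ha
    rwa [add_sub_cancel_left] at this
  exact (mem_maximalIdeal _).mp h2 hr

/-- adding an element of `R` does not change a negative order -/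
theorem ord_add_of_neg {g : K} (hg : CycAlg.ordFrac R K g < 0) (r : R) :
    CycAlg.ordFrac R K (g + algebraMap R K r) = CycAlg.ordFrac R K g := by
  obtain ⟨π, hπ⟩ := IsDiscreteValuationRing.exists_irreducible R
  have hne : algebraMap R K π ≠ 0 := by
    rw [ne_eq, IsFractionRing.to_map_eq_zero_iff]; exact hπ.ne_zero
  have hg0 : g ≠ 0 := by
    rintro rfl
    rw [ordFrac_zero] at hg
    exact lt_irrefl _ hg
  obtain ⟨u, hu⟩ := exists_unit_zpow (K := K) hπ hg0
  obtain ⟨m, hm⟩ := Int.eq_negSucc_of_lt_zero hg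
  set n := CycAlg.ordFrac R K g with hn
  have hn' : n = -((m + 1 : ℕ) : ℤ) := by rw [hm]; rfl
  have hw : IsUnit ((u : R) + r * π ^ (m + 1)) := by
    by_contra hcon
    have h1 : (u : R) + r * π ^ (m + 1) ∈ maximalIdeal R := (mem_maximalIdeal _).mpr hcon
    have h2 : r * π ^ (m + 1) ∈ maximalIdeal R := Ideal.mul_mem_left _ _
      (Ideal.pow_mem_of_mem _ ((mem_maximalIdeal _).mpr hπ.not_isUnit) _ (Nat.succ_pos m))
    have h3 : (u : R) ∈ maximalIdeal R := by
      have := sub_mem h1 h2
      rwa [add_sub_cancel_right] at this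
    exact (mem_maximalIdeal _).mp h3 u.isUnit
  have h1 : g + algebraMap R K r = algebraMap R K ((u : R) + r * π ^ (m + 1)) * algebraMap R K π ^ n := by
    conv_lhs => rw [hu]
    rw [hn', zpow_neg, zpow_natCast, map_add, map_mul, map_pow, add_mul, mul_assoc,
      mul_inv_cancel₀ (pow_ne_zero _ hne), mul_one]
  have h0 : algebraMap R K ((u : R) + r * π ^ (m + 1)) ≠ 0 := by
    rw [ne_eq, IsFractionRing.to_map_eq_zero_iff]; exact hw.ne_zero
  rw [h1, ordFrac_mul R K h0 (zpow_ne_zero _ hne), ord_zpow hπ, ordFrac_algebraMap_of_isUnit R K hw,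
    zero_add]

/-- The derivative of `u π ^ n`: if `δ` is a derivation on `K` with `δ u ∈ R • δ π` for units `u` of `R`,
then `δ g = π ^ (n - 1) w • δ π` with `w` a unit of `R` when `n` is invertible in `R`. -/
theorem exists_deriv {M : Type*} [AddCommGroup M] [Module K M] (δ : Derivation ℤ K M) {π : R}
    (hπ : Irreducible π) (hδ : ∀ r : R, ∃ c : R, δ (algebraMap R K r) = algebraMap R K c • δ (algebraMap R K π))
    {g : K} (hg : g ≠ 0) (hn : IsUnit ((CycAlg.ordFrac R K g : ℤ) : R)) :
    ∃ w : Rˣ, δ g = (algebraMap R K π ^ (CycAlg.ordFrac R K g - 1) * algebraMap R K w) •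
      δ (algebraMap R K π) := by
  have hne : algebraMap R K π ≠ 0 := by
    rw [ne_eq, IsFractionRing.to_map_eq_zero_iff]; exact hπ.ne_zero
  obtain ⟨u, hu⟩ := exists_unit_zpow (K := K) hπ hg
  obtain ⟨c, hc⟩ := hδ u
  set n := CycAlg.ordFrac R K g with hndef
  have hw : IsUnit ((n : R) * u + π * c) := by
    by_contra hcon
    have h1 : (n : R) * u + π * c ∈ maximalIdeal R := (mem_maximalIdeal _).mpr hcon
    have h2 : π * c ∈ maximalIdeal R := Ideal.mul_mem_right _ _
      ((mem_maximalIdeal _).mpr hπ.not_isUnit)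
    have h3 : (n : R) * u ∈ maximalIdeal R := by
      have := sub_mem h1 h2
      rwa [add_sub_cancel_right] at this
    exact (mem_maximalIdeal _).mp h3 (hn.mul u.isUnit)
  refine ⟨hw.unit, ?_⟩
  have h4 : δ g = algebraMap R K u • δ (algebraMap R K π ^ n) + algebraMap R K π ^ n • δ (algebraMap R K u) := by
    conv_lhs => rw [hu]
    rw [Derivation.leibniz]
  rw [h4, hc, Derivation.leibniz_zpow, IsUnit.unit_spec, map_add, map_mul, map_mul, map_intCast,
    ← Int.cast_smul_eq_zsmul K, smul_smul, smul_smul, smul_smul, ← add_smul]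
  congr 1
  have h5 : algebraMap R K π ^ n = algebraMap R K π ^ (n - 1) * algebraMap R K π := by
    rw [zpow_sub_one₀ hne, inv_mul_cancel_right₀ hne]
  rw [h5]
  ring

end Groth.Agent.Pi1.H389.DvrOrd
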