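import Groth.Agent.CurvesA.DivPoint
import Groth.Agent.Pi1.H389.DvrOrd
import Groth.Prelude.Def_Coh
import Mathlib.AlgebraicGeometry.AlgClosed.Basic
import Mathlib.AlgebraicGeometry.ValuativeCriterion
import Mathlib.AlgebraicGeometry.Morphisms.Proper
import Mathlib.AlgebraicGeometry.Morphisms.Separated
import Mathlib.RingTheory.Localization.Away.Basic
import Mathlib.Algebra.Polynomial.RingDivision
import Mathlib.RingTheory.Polynomial.Basic

/-!
# Finite étale maps from an open part of a curve to the punctured line: local analysis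

`X` a scheme over `Spec k`, `V ⊆ X` open, `p : V ⟶ Spec A` with `A = k[T][1 / ∏_{b ∈ S} (T - b)]`.
-/

set_option autoImplicit false
set_option linter.style.haveILetI false
universe u

open CategoryTheory CategoryTheory.Limits AlgebraicGeometry TopologicalSpace Opposite Polynomial

namespace Groth.Agent.Pi1.H389.EtPts

section Sections

variable {X : Scheme.{u}} {A : Type u} [CommRing A] {V : X.Opens} (p : (V : Scheme.{u}) ⟶ Spec (CommRingCat.of A))

/-- the ring map `A → Γ(X, V)` of a morphism `V ⟶ Spec A` -/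
noncomputable def Θ : CommRingCat.of A ⟶ Γ(X, V) :=
  (Scheme.ΓSpecIso (CommRingCat.of A)).inv ≫ p.appTop ≫ V.topIso.hom

theorem eq_toSpecΓ_SpecMap_Θ : p = V.toSpecΓ ≫ Spec.map (Θ p) := by
  rw [Scheme.Opens.toSpecΓ, Θ, Category.assoc, ← Spec.map_comp, Category.assoc, Category.assoc,
    Iso.hom_inv_id, Category.comp_id, Spec.map_comp, ← Scheme.toSpecΓ_naturality_assoc,
    toSpecΓ_SpecMap_ΓSpecIso_inv, Category.comp_id]

/-- the ring map `A → O_{X, x}` at a point of `V` -/
noncomputable def ρ (x : X) (hx : x ∈ V) : CommRingCat.of A ⟶ X.presheaf.stalk x :=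
  Θ p ≫ X.presheaf.germ V x hx

theorem fromSpecStalkOfMem_comp (x : X) (hx : x ∈ V) :
    V.fromSpecStalkOfMem x hx ≫ p = Spec.map (ρ p x hx) := by
  conv_lhs => rw [eq_toSpecΓ_SpecMap_Θ p]
  rw [Scheme.Opens.fromSpecStalkOfMem_toSpecΓ_assoc, ← Spec.map_comp, ρ]

theorem ρ_specializes {x y : X} (h : y ⤳ x) (hx : x ∈ V) (hy : y ∈ V) :
    ρ p x hx ≫ X.presheaf.stalkSpecializes h = ρ p y hy := by
  rw [ρ, ρ, Category.assoc]
  congr 1
  exact TopCat.Presheaf.germ_stalkSpecializes X.presheaf hx h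

theorem stalkMap_eq (v : V) : (Spec (CommRingCat.of A)).presheaf.germ ⊤ (p v) trivial ≫ p.stalkMap v ≫
    (V.stalkIso v).hom = (Scheme.ΓSpecIso (CommRingCat.of A)).hom ≫ ρ p v.1 v.2 := by
  rw [Scheme.Hom.germ_stalkMap_assoc]
  simp only [ρ, Θ, Category.assoc, Iso.hom_inv_id_assoc]
  congr 1
  rw [Scheme.Opens.germ_stalkIso_hom, Scheme.Opens.topIso_hom]
  exact (X.presheaf.germ_res (eqToHom (by simp)) v.1 v.2).symm

end Sections

section Etale

variable {X : Scheme.{u}} {A : Type u} [CommRing A] {V : X.Opens} (p : (V : Scheme.{u}) ⟶ Spec (CommRingCat.of A))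

theorem asIdeal_eq (v : V) :
    (p v).asIdeal = (IsLocalRing.maximalIdeal (X.presheaf.stalk v.1)).comap (ρ p v.1 v.2).hom := by
  have h1 : (V.fromSpecStalkOfMem v.1 v.2 ≫ p) (IsLocalRing.closedPoint (X.presheaf.stalk v.1)) = p v := by
    rw [Scheme.Hom.comp_apply]
    congr 1
    apply Subtype.ext
    change V.ι (V.fromSpecStalkOfMem v.1 v.2 (IsLocalRing.closedPoint (X.presheaf.stalk v.1))) = v.1
    rw [← Scheme.Hom.comp_apply]
    simp
  rw [← h1, fromSpecStalkOfMem_comp]
  rfl

theorem span_eq_maximalIdeal [Etale p] [IsNoetherianRing A] (v : V) (a : A)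
    (ha : (p v).asIdeal = Ideal.span {a}) :
    IsLocalRing.maximalIdeal (X.presheaf.stalk v.1) = Ideal.span {(ρ p v.1 v.2).hom a} := by
  have hN : IsLocallyNoetherian (Spec (CommRingCat.of A)) := inferInstance
  have h1 := CurvesA.DivPoint.map_maximalIdeal p v
  have h2 : (IsLocalRing.maximalIdeal ((Spec (CommRingCat.of A)).presheaf.stalk (p v))) =
      Ideal.span {(Spec (CommRingCat.of A)).presheaf.germ ⊤ (p v) trivial
        ((Scheme.ΓSpecIso (CommRingCat.of A)).inv a)} := by
    letI : Algebra A ((Spec (CommRingCat.of A)).presheaf.stalk (p v)) :=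
      ((Scheme.ΓSpecIso (CommRingCat.of A)).inv ≫
        (Spec (CommRingCat.of A)).presheaf.germ ⊤ (p v) trivial).hom.toAlgebra
    have h3 : IsLocalization.AtPrime ((Spec (CommRingCat.of A)).presheaf.stalk (p v)) (p v).asIdeal :=
      inferInstanceAs (IsLocalization.AtPrime ((Spec.structureSheaf A).presheaf.stalk (p v)) (p v).asIdeal)
    rw [← IsLocalization.AtPrime.map_eq_maximalIdeal (p v).asIdeal, ha, Ideal.map_span, Set.image_singleton]
    rfl
  rw [h2, Ideal.map_span, Set.image_singleton] at h1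
  let e : (V : Scheme.{u}).presheaf.stalk v ≃+* X.presheaf.stalk v.1 := (V.stalkIso v).commRingCatIsoToRingEquiv
  have h4 : (IsLocalRing.maximalIdeal ((V : Scheme.{u}).presheaf.stalk v)).map (e : _ →+* _) =
      IsLocalRing.maximalIdeal (X.presheaf.stalk v.1) :=
    IsLocalRing.map_ringEquiv_maximalIdeal _
  rw [← h4, ← h1, Ideal.map_span, Set.image_singleton]
  congr 2
  have h5 := congr($(stalkMap_eq p v) ((Scheme.ΓSpecIso (CommRingCat.of A)).inv a))
  have h6 : (Scheme.ΓSpecIso (CommRingCat.of A)).hom ((Scheme.ΓSpecIso (CommRingCat.of A)).inv a) = a :=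
    congr($((Scheme.ΓSpecIso (CommRingCat.of A)).inv_hom_id) a)
  exact h5.trans (congrArg (ρ p v.1 v.2).hom h6)

end Etale

/-! ### Schemes over a field -/

section Over

variable {k : Type u} [Field k] {X : Scheme.{u}} (f : X ⟶ Spec (CommRingCat.of k))

/-- the constants in the local ring -/
noncomputable abbrev st (x : X) : k →+* X.presheaf.stalk x :=
  (X.presheaf.germ ⊤ x trivial).hom.comp (Coh.toGlobal f)

theorem fromSpecStalk_comp (x : X) : X.fromSpecStalk x ≫ f = Spec.map (CommRingCat.ofHom (st f x)) := by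
  have h1 : f = X.toSpecΓ ≫ Spec.map ((Scheme.ΓSpecIso (CommRingCat.of k)).inv ≫ f.appTop) := by
    rw [Spec.map_comp, ← Scheme.toSpecΓ_naturality_assoc, toSpecΓ_SpecMap_ΓSpecIso_inv, Category.comp_id]
  conv_lhs => rw [h1]
  rw [Scheme.fromSpecStalk_toSpecΓ_assoc, ← Spec.map_comp]
  rfl

theorem st_specializes {x y : X} (h : y ⤳ x) (a : k) :
    X.presheaf.stalkSpecializes h (st f x a) = st f y a :=
  TopCat.Presheaf.germ_stalkSpecializes_apply X.presheaf (U := ⊤) trivial h _

variable (S : Finset k) (A : Type u) [CommRing A] [Algebra k[X] A]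
  [IsLocalization.Away (∏ b ∈ S, (Polynomial.X - C b) : k[X]) A]

/-- `k → A` -/
noncomputable abbrev kA (k A : Type u) [Field k] [CommRing A] [Algebra k[X] A] : k →+* A :=
  (algebraMap k[X] A).comp C

include S in
theorem isNoetherianRing : IsNoetherianRing A :=
  IsLocalization.isNoetherianRing (Submonoid.powers (∏ b ∈ S, (Polynomial.X - C b) : k[X])) A inferInstance

theorem isUnit_sub {b : k} (hb : b ∈ S) : IsUnit (algebraMap k[X] A (Polynomial.X - C b)) := by
  have h1 : IsUnit (algebraMap k[X] A (∏ b ∈ S, (Polynomial.X - C b))) :=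
    IsLocalization.Away.algebraMap_isUnit _
  exact isUnit_of_dvd_unit (map_dvd _ (Finset.dvd_prod_of_mem (fun b => (Polynomial.X - C b : k[X])) hb)) h1

include S in
/-- a prime of `A` containing `T - c` is generated by it -/
theorem asIdeal_eq_span {P : Ideal A} [hP : P.IsPrime] {c : k}
    (hc : algebraMap k[X] A (Polynomial.X - C c) ∈ P) :
    P = Ideal.span {algebraMap k[X] A (Polynomial.X - C c)} := by
  have h1 : P.under k[X] = Ideal.span {Polynomial.X - C c} := by
    have h2 : (Ideal.span {(Polynomial.X - C c : k[X])}).IsMaximal :=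
      PrincipalIdealRing.isMaximal_of_irreducible (irreducible_X_sub_C c)
    refine (h2.eq_of_le (Ideal.IsPrime.ne_top (hP.under k[X])) ?_).symm
    rw [Ideal.span_singleton_le_iff_mem]
    exact hc
  rw [← IsLocalization.map_under (Submonoid.powers (∏ b ∈ S, (Polynomial.X - C b) : k[X])) A P, h1,
    Ideal.map_span, Set.image_singleton]

variable {A} {V : X.Opens} (p : (V : Scheme.{u}) ⟶ Spec (CommRingCat.of A))
  (hp : p ≫ Spec.map (CommRingCat.ofHom (kA k A)) = V.ι ≫ f)

omit [IsLocalization.Away (∏ b ∈ S, (Polynomial.X - C b) : k[X]) A] in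
include hp in
theorem ρ_kA (x : X) (hx : x ∈ V) (a : k) : (ρ p x hx).hom (kA k A a) = st f x a := by
  have h1 : Spec.map (ρ p x hx) ≫ Spec.map (CommRingCat.ofHom (kA k A)) =
      Spec.map (CommRingCat.ofHom (st f x)) := by
    rw [← fromSpecStalkOfMem_comp, Category.assoc, hp, Scheme.Opens.fromSpecStalkOfMem_ι_assoc,
      fromSpecStalk_comp]
  rw [← Spec.map_comp] at h1
  exact congr($(Spec.map_injective h1) a)

include hp in
theorem ρ_sub (x : X) (hx : x ∈ V) (c : k) : (ρ p x hx).hom (algebraMap k[X] A (Polynomial.X - C c)) =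
    (ρ p x hx).hom (algebraMap k[X] A Polynomial.X) - st f x c := by
  rw [map_sub, map_sub, ← ρ_kA f p hp x hx c]
  rfl

include hp in
/-- the value of the coordinate at a rational point of `V` is not in `S`, and the corresponding function
generates the maximal ideal when `p` is étale -/
theorem exists_value [Etale p] {x : X} (hx : x ∈ V)
    (hrat : ∀ a : X.presheaf.stalk x, ∃ c : k, a - st f x c ∈ IsLocalRing.maximalIdeal (X.presheaf.stalk x)) :
    ∃ c ∉ S, IsLocalRing.maximalIdeal (X.presheaf.stalk x) =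
      Ideal.span {(ρ p x hx).hom (algebraMap k[X] A (Polynomial.X - C c))} := by
  obtain ⟨c, hc⟩ := hrat ((ρ p x hx).hom (algebraMap k[X] A Polynomial.X))
  rw [← ρ_sub f p hp x hx c] at hc
  refine ⟨c, fun hcS => ?_, ?_⟩
  · exact (IsLocalRing.mem_maximalIdeal _).mp hc ((isUnit_sub S A hcS).map _)
  · have := isNoetherianRing S A
    refine span_eq_maximalIdeal p ⟨x, hx⟩ _ ?_
    refine asIdeal_eq_span S A ?_
    rw [asIdeal_eq p ⟨x, hx⟩]
    exact hc

end Over

end Groth.Agent.Pi1.H389.EtPts
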