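import Mathlib.AlgebraicGeometry.ValuativeCriterion
import Mathlib.Algebra.Polynomial.Eval.Defs

/-!
# Valuative criterion for the morphism to the affine line defined by a function on its domain of definition
-/

set_option autoImplicit false
set_option linter.style.haveILetI false
universe u

open CategoryTheory CategoryTheory.Limits AlgebraicGeometry TopologicalSpace Opposite Polynomial

namespace Groth.Agent.Pi1.H389.ToLine

variable {X : Scheme.{u}} {k : Type u} [Field k] (f : X ⟶ Spec (CommRingCat.of k))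

/-- the morphism to the line defined by `h : k[T] → Γ(X, W)` -/
noncomputable def toLine (W : X.Opens) (h : k[X] →+* Γ(X, W)) :
    (W : Scheme.{u}) ⟶ Spec (CommRingCat.of k[X]) :=
  W.toSpecΓ ≫ Spec.map (CommRingCat.ofHom h)

/-- `W ⟶ 𝔸¹` satisfies the existence part of the valuative criterion if the inverse of the coordinate is regular
outside `W` and vanishes there. -/
theorem existence [UniversallyClosed f] {W W' : X.Opens} (hcov : ∀ x, x ∉ W → x ∈ W')
    (h : k[X] →+* Γ(X, W)) (a' : Γ(X, W'))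
    (hk : toLine W h ≫ Spec.map (CommRingCat.ofHom C) = W.ι ≫ f)
    (hinv : (X.presheaf.map (homOfLE (inf_le_left : W ⊓ W' ≤ W)).op).hom (h Polynomial.X) *
      (X.presheaf.map (homOfLE (inf_le_right : W ⊓ W' ≤ W')).op).hom a' = 1)
    (hb : X.basicOpen a' ≤ W) : ValuativeCriterion.Existence (toLine W h) := by
  intro S
  have hfe : ValuativeCriterion.Existence f := by
    have h1 : UniversallyClosed f := inferInstance
    rw [UniversallyClosed.eq_valuativeCriterion] at h1
    exact h1.1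
  obtain ⟨l, hl₁, hl₂⟩ := (hfe (ValuativeCommSq.mk (f := f) S.R S.K (S.i₁ ≫ W.ι)
    (S.i₂ ≫ Spec.map (CommRingCat.ofHom C))
    ⟨by rw [Category.assoc, ← hk, reassoc_of% S.commSq.w]⟩)).exists_lift
  dsimp only at hl₁ hl₂
  obtain ⟨φ₂, hφ₂⟩ := Spec.map_surjective S.i₂
  have hspec : ∀ (U : X.Opens), l (IsLocalRing.closedPoint S.R) ∈ U → Set.range l ⊆ Set.range U.ι := by
    rintro U hU _ ⟨z, rfl⟩
    rw [Scheme.Opens.range_ι]
    exact ((IsLocalRing.specializes_closedPoint z).map l.continuous).mem_open U.isOpen hU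
  have hx : l (IsLocalRing.closedPoint S.R) ∈ W := by
    by_contra hx
    have hx' := hcov _ hx
    let l' : Spec (CommRingCat.of S.R) ⟶ W' := IsOpenImmersion.lift W'.ι l (hspec W' hx')
    have hl' : l' ≫ W'.ι = l := IsOpenImmersion.lift_fac _ _ _
    have hrangeD : Set.range (S.i₁ ≫ W.ι) ⊆ Set.range (W ⊓ W').ι := by
      rintro _ ⟨z, rfl⟩
      rw [Scheme.Opens.range_ι]
      refine ⟨?_, ?_⟩
      · rw [Scheme.Hom.comp_apply]; exact (S.i₁ z).2
      · rw [← hl₁, ← hl', Scheme.Hom.comp_apply, Scheme.Hom.comp_apply]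
        exact (l' _).2
    let m' : Spec (CommRingCat.of S.K) ⟶ (W ⊓ W' : X.Opens) :=
      IsOpenImmersion.lift (W ⊓ W').ι (S.i₁ ≫ W.ι) hrangeD
    have hm' : m' ≫ (W ⊓ W').ι = S.i₁ ≫ W.ι := IsOpenImmersion.lift_fac _ _ _
    have hm1 : m' ≫ X.homOfLE inf_le_left = S.i₁ := by
      rw [← cancel_mono W.ι, Category.assoc, Scheme.homOfLE_ι, hm']
    have hm2 : m' ≫ X.homOfLE inf_le_right = Spec.map (CommRingCat.ofHom (algebraMap S.R S.K)) ≫ l' := by
      rw [← cancel_mono W'.ι, Category.assoc, Scheme.homOfLE_ι, hm', Category.assoc, hl', hl₁]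
    obtain ⟨χ, hχ⟩ := Spec.map_surjective (m' ≫ (W ⊓ W').toSpecΓ)
    obtain ⟨φ', hφ'⟩ := Spec.map_surjective (l' ≫ W'.toSpecΓ)
    have e1 : CommRingCat.ofHom h ≫ X.presheaf.map (homOfLE (inf_le_left : W ⊓ W' ≤ W)).op ≫ χ =
        φ₂ ≫ CommRingCat.ofHom (algebraMap S.R S.K) := by
      apply Spec.map_injective
      rw [Spec.map_comp, Spec.map_comp, Spec.map_comp, hχ, Category.assoc, Category.assoc,
        Scheme.Opens.toSpecΓ_SpecMap_presheaf_map_assoc, reassoc_of% hm1, hφ₂]
      exact S.commSq.w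
    have e2 : X.presheaf.map (homOfLE (inf_le_right : W ⊓ W' ≤ W')).op ≫ χ =
        φ' ≫ CommRingCat.ofHom (algebraMap S.R S.K) := by
      apply Spec.map_injective
      rw [Spec.map_comp, Spec.map_comp, hχ, Category.assoc,
        Scheme.Opens.toSpecΓ_SpecMap_presheaf_map, reassoc_of% hm2, hφ']
    have e3 : algebraMap S.R S.K (φ₂.hom Polynomial.X) * algebraMap S.R S.K (φ'.hom a') = 1 := by
      have h1 := congr($e1 Polynomial.X)
      have h2 := congr($e2 a')
      have h3 := congrArg χ.hom hinv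
      rw [map_mul, map_one] at h3
      rw [← h3]
      exact congrArg₂ (· * ·) h1.symm h2.symm
    have e4 : φ₂.hom Polynomial.X * φ'.hom a' = 1 := by
      apply IsFractionRing.injective S.R S.K
      rw [map_mul, map_one]
      exact e3
    have hu : IsUnit (φ'.hom a') := IsUnit.of_mul_eq_one_right _ e4
    have h5 : l (IsLocalRing.closedPoint S.R) ∈ X.basicOpen a' := by
      have h6 : (l' ≫ W'.toSpecΓ) (IsLocalRing.closedPoint S.R) ∈ PrimeSpectrum.basicOpen a' := by
        rw [← hφ']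
        exact fun h7 => (IsLocalRing.mem_maximalIdeal _).mp h7 hu
      have h7 : l' (IsLocalRing.closedPoint S.R) ∈ W'.toSpecΓ ⁻¹ᵁ PrimeSpectrum.basicOpen a' := h6
      rw [Scheme.Opens.toSpecΓ_preimage_basicOpen] at h7
      have h8 : (l' ≫ W'.ι) (IsLocalRing.closedPoint S.R) ∈ X.basicOpen a' := h7
      rwa [hl'] at h8
    exact hx (hb h5)
  let l₀ : Spec (CommRingCat.of S.R) ⟶ W := IsOpenImmersion.lift W.ι l (hspec W hx)
  have hl₀ : l₀ ≫ W.ι = l := IsOpenImmersion.lift_fac _ _ _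
  have hl₀' : Spec.map (CommRingCat.ofHom (algebraMap S.R S.K)) ≫ l₀ = S.i₁ := by
    rw [← cancel_mono W.ι, Category.assoc, hl₀, hl₁]
  refine ⟨⟨⟨l₀, hl₀', ?_⟩⟩⟩
  obtain ⟨φ₀, hφ₀⟩ := Spec.map_surjective (l₀ ≫ toLine W h)
  rw [← hφ₀, ← hφ₂]
  congr 1
  have h1 : φ₀ ≫ CommRingCat.ofHom (algebraMap S.R S.K) = φ₂ ≫ CommRingCat.ofHom (algebraMap S.R S.K) := by
    apply Spec.map_injective
    rw [Spec.map_comp, Spec.map_comp, hφ₀, hφ₂, reassoc_of% hl₀']
    exact S.commSq.w
  refine CommRingCat.hom_ext (RingHom.ext fun a => ?_)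
  exact IsFractionRing.injective S.R S.K congr($h1 a)

end Groth.Agent.Pi1.H389.ToLine
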