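import Groth.Agent.CurvesA.ResDegOne
import Groth.Agent.CurvesA.CurveDvr
import Groth.Agent.VarietyA.Dim1Top
import Groth.Agent.Pi1.H387.P1Data
import Groth.Agent.Pi1.H389.Dom
import Groth.Agent.Pi1.H389.ToLine
import Groth.Agent.Pi1.H389.EtPts
import Mathlib.AlgebraicGeometry.ZariskisMainTheorem
import Mathlib.AlgebraicGeometry.Noetherian

/-!
# The domain of definition of a nonconstant rational function on a proper curve is affine and finite over the line
-/

set_option autoImplicit false
set_option linter.style.haveILetI false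
universe u

open CategoryTheory CategoryTheory.Limits AlgebraicGeometry TopologicalSpace Opposite Polynomial
open Groth.Agent.Pi1.H387.P1Data

namespace Groth.Agent.Pi1.H389.ChartFin

variable {k : Type u} [Field k] {X : Scheme.{u}}

/-- closed points over an algebraically closed field are rational -/
theorem exists_const [IsAlgClosed k] (f : X ⟶ Spec (CommRingCat.of k)) [LocallyOfFiniteType f] {x : X}
    (hx : IsClosed ({x} : Set X)) (a : X.presheaf.stalk x) :
    ∃ c : k, a - EtPts.st f x c ∈ IsLocalRing.maximalIdeal (X.presheaf.stalk x) := by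
  have h1 := Groth.Agent.CurvesA.ResDegOne.bijective_residueFieldMap f x hx
  obtain ⟨b, hb⟩ := h1.2 (X.residue x a)
  obtain ⟨b', rfl⟩ := (Spec (CommRingCat.of k)).residue_surjective (f x) b
  obtain ⟨U, hU, s, rfl⟩ := TopCat.Presheaf.exists_germ_eq (Spec (CommRingCat.of k)).presheaf b'
  have hU' : U = ⊤ := by
    rw [eq_top_iff]
    intro y _
    rwa [Subsingleton.elim y (f x)]
  subst hU'
  obtain ⟨c, rfl⟩ := (ConcreteCategory.bijective_of_isIso (Scheme.ΓSpecIso (CommRingCat.of k)).inv).2 s
  refine ⟨c, ?_⟩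
  rw [← IsLocalRing.residue_eq_zero_iff]
  change X.residue x (a - EtPts.st f x c) = 0
  rw [map_sub, ← hb, sub_eq_zero]
  exact Scheme.Γevaluation_naturality_apply f x ((Scheme.ΓSpecIso (CommRingCat.of k)).inv c)

variable [X.Over (Spec (CommRingCat.of k))]

theorem germ_strU (W : X.Opens) (x : X) (hx : x ∈ W) (c : k) :
    X.presheaf.germ W x hx (strU k X W c) = EtPts.st (X ↘ Spec (CommRingCat.of k)) x c :=
  X.presheaf.germ_res_apply (homOfLE le_top) x hx _

theorem germ_polyU (W : X.Opens) (a : Γ(X, W)) (x : X) (hx : x ∈ W) (c : k) :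
    X.presheaf.germ W x hx (polyU k X W a (Polynomial.X - C c)) =
      X.presheaf.germ W x hx a - EtPts.st (X ↘ Spec (CommRingCat.of k)) x c := by
  rw [polyU, map_sub, map_sub, Polynomial.coe_eval₂RingHom, Polynomial.eval₂_X, Polynomial.eval₂_C, germ_strU]

theorem toSpecΓ_strU (W : X.Opens) : W.toSpecΓ ≫ Spec.map (CommRingCat.ofHom (strU k X W)) =
    W.ι ≫ (X ↘ Spec (CommRingCat.of k)) := by
  have h1 : CommRingCat.ofHom (strU k X W) = (Scheme.ΓSpecIso (CommRingCat.of k)).inv ≫
      (X ↘ Spec (CommRingCat.of k)).appLE ⊤ W le_top := rfl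
  rw [h1, Spec.map_comp, Scheme.Opens.toSpecΓ_SpecMap_appLE_assoc, Scheme.Opens.toSpecΓ_top,
    Category.assoc, Scheme.Hom.resLE_comp_ι_assoc, toSpecΓ_SpecMap_ΓSpecIso_inv, Category.comp_id]

theorem toLine_polyU (W : X.Opens) (a : Γ(X, W)) :
    ToLine.toLine W (polyU k X W a) ≫ Spec.map (CommRingCat.ofHom C) = W.ι ≫ (X ↘ Spec (CommRingCat.of k)) := by
  rw [ToLine.toLine, Category.assoc, ← Spec.map_comp, ← CommRingCat.ofHom_comp, ← toSpecΓ_strU]
  congr 3
  ext c
  simp [polyU]

section Main

variable [IsIntegral X] [IsAlgClosed k] [IsProper (X ↘ Spec (CommRingCat.of k))]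

/-- finiteness of the fibres of a nonconstant function -/
theorem finite_preimage (hdim : topologicalKrullDim X = 1) (W : X.Opens) (hη : genericPoint X ∈ W) (a : Γ(X, W))
    (ha : ∀ c : k, X.presheaf.germ W (genericPoint X) hη a ≠
      EtPts.st (X ↘ Spec (CommRingCat.of k)) (genericPoint X) c)
    (y : Spec (CommRingCat.of k[X])) : (ToLine.toLine W (polyU k X W a) ⁻¹' {y}).Finite := by
  have : IsLocallyNoetherian X :=
    LocallyOfFiniteType.isLocallyNoetherian (X ↘ Spec (CommRingCat.of k))
  have : CompactSpace X := QuasiCompact.compactSpace_of_compactSpace (X ↘ Spec (CommRingCat.of k))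
  have : IsNoetherian X := {}
  have hpre : ∀ q : k[X], ToLine.toLine W (polyU k X W a) ⁻¹ᵁ PrimeSpectrum.basicOpen q =
      W.ι ⁻¹ᵁ X.basicOpen (polyU k X W a q) := by
    intro q
    rw [← Scheme.Opens.toSpecΓ_preimage_basicOpen]
    rfl
  have hmem : ∀ (w : W) (q : k[X]), ToLine.toLine W (polyU k X W a) w = y →
      (w.1 ∈ X.basicOpen (polyU k X W a q) ↔ q ∉ y.asIdeal) := by
    rintro w q rfl
    exact (Opens.ext_iff.mp (hpre q) |> fun h => Set.ext_iff.mp h w).symm
  by_cases hy : ∃ c : k, Polynomial.X - C c ∈ y.asIdeal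
  · obtain ⟨c, hc⟩ := hy
    have hne : ((X.basicOpen (polyU k X W a (Polynomial.X - C c)) : X.Opens) : Set X).Nonempty := by
      refine ⟨genericPoint X, ?_⟩
      change genericPoint X ∈ X.basicOpen _
      rw [Scheme.mem_basicOpen X _ (genericPoint X) hη, germ_polyU]
      exact (sub_ne_zero.mpr (ha c)).isUnit
    have hfin := VarietyA.Dim1Top.finite_compl hdim.le _
      ((X.basicOpen (polyU k X W a (Polynomial.X - C c))).isOpen.dense hne)
    refine (hfin.preimage (f := fun w : W => w.1) Subtype.val_injective.injOn).subset ?_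
    intro w hw hw'
    exact (hmem w _ hw).mp hw' hc
  · refine (Set.finite_singleton (⟨genericPoint X, hη⟩ : W)).subset ?_
    intro w hw
    by_contra hcon
    have hwη : w.1 ≠ genericPoint X := fun h => hcon (Subtype.ext h)
    obtain ⟨c, hc⟩ := exists_const (X ↘ Spec (CommRingCat.of k))
      ((CurvesA.CurveDvr.isClosed_singleton_iff hdim w.1).mpr hwη) (X.presheaf.germ W w.1 w.2 a)
    refine hy ⟨c, ?_⟩
    by_contra hc'
    have h1 := (hmem w _ hw).mpr hc'
    rw [Scheme.mem_basicOpen X _ w.1 w.2, germ_polyU] at h1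
    exact (IsLocalRing.mem_maximalIdeal _).mp hc h1

/-- The domain of a nonconstant rational function is affine and finite over the line. -/
theorem isAffineOpen_and_finite (hdim : topologicalKrullDim X = 1)
    {W W' : X.Opens} (hη : genericPoint X ∈ W) (a : Γ(X, W)) (hη' : genericPoint X ∈ W') (a' : Γ(X, W'))
    (haa : X.presheaf.germ W (genericPoint X) hη a * X.presheaf.germ W' (genericPoint X) hη' a' = 1)
    (ha : ∀ c : k, X.presheaf.germ W (genericPoint X) hη a ≠
      EtPts.st (X ↘ Spec (CommRingCat.of k)) (genericPoint X) c)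
    (hcov : ∀ x : X, x ∉ W → x ∈ W') (hb : X.basicOpen a' ≤ W) :
    IsAffineOpen W ∧ (polyU k X W a).Finite := by
  have : IsLocallyNoetherian X :=
    LocallyOfFiniteType.isLocallyNoetherian (X ↘ Spec (CommRingCat.of k))
  have : CompactSpace X := QuasiCompact.compactSpace_of_compactSpace (X ↘ Spec (CommRingCat.of k))
  have : IsNoetherian X := {}
  have hq := toLine_polyU W a (k := k)
  set q := ToLine.toLine W (polyU k X W a) with hqdef
  have hsep : IsSeparated (q ≫ Spec.map (CommRingCat.ofHom C)) := by rw [hq]; infer_instance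
  have hft : LocallyOfFiniteType (q ≫ Spec.map (CommRingCat.ofHom C)) := by rw [hq]; infer_instance
  have : IsSeparated q := IsSeparated.of_comp q (Spec.map (CommRingCat.ofHom C))
  have : LocallyOfFiniteType q := locallyOfFiniteType_of_comp q (Spec.map (CommRingCat.ofHom C))
  have : NoetherianSpace X := inferInstance
  have : NoetherianSpace W := NoetherianSpace.set (W : Set X)
  have : QuasiCompact q := inferInstance
  have hinv : (X.presheaf.map (homOfLE (inf_le_left : W ⊓ W' ≤ W)).op).hom
        (polyU k X W a Polynomial.X) *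
      (X.presheaf.map (homOfLE (inf_le_right : W ⊓ W' ≤ W')).op).hom a' = 1 := by
    apply germ_injective_of_isIntegral X (genericPoint X) (U := W ⊓ W') ⟨hη, hη'⟩
    rw [map_mul, map_one, ← haa]
    congr 1
    · refine Eq.trans (X.presheaf.germ_res_apply (homOfLE inf_le_left) (genericPoint X) ⟨hη, hη'⟩ _) ?_
      rw [polyU, Polynomial.coe_eval₂RingHom, Polynomial.eval₂_X]
    · exact X.presheaf.germ_res_apply (homOfLE inf_le_right) (genericPoint X) ⟨hη, hη'⟩ _
  have : UniversallyClosed q := UniversallyClosed.of_valuativeCriterion q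
    (ToLine.existence (X ↘ Spec (CommRingCat.of k)) hcov (polyU k X W a) a' hq hinv hb)
  have : IsProper q := {}
  have : LocallyQuasiFinite q := locallyQuasiFinite_iff_finite_preimage_singleton.mpr
    (finite_preimage hdim W hη a ha)
  have hfin : IsFinite q := IsFinite.of_isProper_of_locallyQuasiFinite q
  have haff : IsAffineOpen W := isAffine_of_isAffineHom q
  refine ⟨haff, ?_⟩
  have h1 : Spec.map (CommRingCat.ofHom (polyU k X W a)) = haff.isoSpec.inv ≫ q := by
    rw [hqdef, ToLine.toLine, IsAffineOpen.isoSpec_inv_toSpecΓ_assoc]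
  have h2 : IsFinite (Spec.map (CommRingCat.ofHom (polyU k X W a))) := by
    rw [h1]; infer_instance
  exact (IsFinite.SpecMap_iff _).mp h2

end Main

end Groth.Agent.Pi1.H389.ChartFin
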