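import Mathlib.RingTheory.DiscreteValuationRing.Basic
import Mathlib.RingTheory.Derivation.Basic
import Mathlib.RingTheory.LocalRing.ResidueField.Basic
import Mathlib.RingTheory.Nakayama

/-!
# The differential of a uniformizer generates

Let `R` be a local `k`-algebra with residue field `k`, `M` a finite `R`-module and `D : R → M` a
derivation whose values generate `M`.  If the maximal ideal is generated by `π` then `D π` generates `M`.
-/

set_option autoImplicit false

namespace Groth.Agent.Pi1.H389.LocalOrd

open IsLocalRing

variable {k R M : Type*} [Field k] [CommRing R] [IsLocalRing R] [AddCommGroup M] [Module R M]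

/-- the differential of a generator of the maximal ideal generates the module of differentials -/
theorem span_d_eq_top [Module.Finite R M] (i : k →+* R) (D : R →+ M)
    (hD : ∀ a b, D (a * b) = a • D b + b • D a) (hi : ∀ c, D (i c) = 0)
    (hspan : Submodule.span R (Set.range D) = ⊤)
    (hres : ∀ r : R, ∃ c : k, r - i c ∈ maximalIdeal R) (π : R) (hπ : maximalIdeal R = Ideal.span {π}) :
    Submodule.span R {D π} = ⊤ := by
  have h1 : (⊤ : Submodule R M) ≤ Submodule.span R {D π} ⊔ maximalIdeal R • ⊤ := by
    rw [← hspan, Submodule.span_le]
    rintro _ ⟨r, rfl⟩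
    obtain ⟨c, hc⟩ := hres r
    rw [hπ, Ideal.mem_span_singleton'] at hc
    obtain ⟨s, hs⟩ := hc
    have h2 : r = i c + s * π := by rw [hs]; ring
    rw [h2, map_add, hi, zero_add, hD]
    refine Submodule.add_mem _ (Submodule.mem_sup_left (Submodule.smul_mem _ _
      (Submodule.mem_span_singleton_self _))) (Submodule.mem_sup_right ?_)
    refine Submodule.smul_mem_smul ?_ ?_
    · rw [hπ]; exact Ideal.mem_span_singleton_self _
    · rw [hspan]; trivial
  exact top_le_iff.mp (Submodule.le_of_le_smul_of_le_jacobson_bot Module.Finite.fg_top
    (maximalIdeal_le_jacobson _) h1)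

end Groth.Agent.Pi1.H389.LocalOrd
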