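import Groth.Agent.CycB.DegCurve
import Groth.Agent.CurvesB.OmegaInv
import Groth.Agent.CurvesA.ResDegOne
import Groth.Agent.CurvesA.CurveDvr
import Groth.Agent.Pi1.H389.LocalOrd
import Groth.Agent.Pi1.H389.DvrOrd

/-!
# The order of the differential of a rational function on a smooth curve

`X` integral, smooth of dimension one over an algebraically closed field `k`, `g` a nonzero rational function whose
order `n` at the closed point `x` is not divisible by the characteristic: the rational differential `dg` has order
`n - 1` at `x`.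
-/

set_option autoImplicit false
set_option linter.style.haveILetI false
universe u

open CategoryTheory CategoryTheory.Limits AlgebraicGeometry TopologicalSpace Opposite
open Groth.Agent.CycB.ModStalk Groth.Agent.CycB.C1Basic Groth.Agent.CycB.DegLocal
open Groth.Agent.CurvesB.OmegaStalkDict Groth.Agent.CurvesB

namespace Groth.Agent.Pi1.H389.DtOrd

variable {k : Type u} [Field k] {X : Scheme.{u}} (f : X ⟶ Spec (CommRingCat.of k))

section Basic

variable [QuasiCompact (pullback.diagonal f)]

/-- the values of the universal derivation generate the stalk -/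
theorem span_range_dSt (x : X) : Submodule.span (X.presheaf.stalk x) (Set.range (dSt f x)) = ⊤ := by
  letI := stAlg f x
  letI := stMod f (Omega.sheaf f) x
  haveI := stTower f (Omega.sheaf f) x
  rw [eq_top_iff]
  rintro m -
  obtain ⟨ω, rfl⟩ := (bijective_stDer f x).2 m
  have h1 : ω ∈ Submodule.span (X.presheaf.stalk x)
      (Set.range (KaehlerDifferential.D k (X.presheaf.stalk x))) := by
    rw [KaehlerDifferential.span_range_derivation]; trivial
  induction h1 using Submodule.span_induction with
  | mem y hy =>
    obtain ⟨a, rfl⟩ := hy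
    rw [Derivation.liftKaehlerDifferential_comp_D]
    exact Submodule.subset_span ⟨a, rfl⟩
  | zero => rw [map_zero]; exact Submodule.zero_mem _
  | add a b _ _ ha hb => rw [map_add]; exact Submodule.add_mem _ ha hb
  | smul c a _ ha => rw [map_smul]; exact Submodule.smul_mem _ _ ha

end Basic

/-- closed points over an algebraically closed field are rational -/
theorem exists_const [IsAlgClosed k] [LocallyOfFiniteType f] {x : X} (hx : IsClosed ({x} : Set X))
    (a : X.presheaf.stalk x) : ∃ c : k, a - stHom f x c ∈ IsLocalRing.maximalIdeal (X.presheaf.stalk x) := by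
  have h1 := Groth.Agent.CurvesA.ResDegOne.bijective_residueFieldMap f x hx
  obtain ⟨b, hb⟩ := h1.2 (X.residue x a)
  obtain ⟨b', rfl⟩ := (Spec (CommRingCat.of k)).residue_surjective (f x) b
  obtain ⟨U, hU, s, rfl⟩ := TopCat.Presheaf.exists_germ_eq (Spec (CommRingCat.of k)).presheaf b'
  have hU' : U = ⊤ := by
    rw [eq_top_iff]
    intro y _
    rwa [Subsingleton.elim y (f x)]
  subst hU'
  obtain ⟨c, rfl⟩ := (ConcreteCategory.bijective_of_isIso (Scheme.ΓSpecIso (CommRingCat.of k)).inv).2 s
  refine ⟨c, ?_⟩
  rw [← IsLocalRing.residue_eq_zero_iff]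
  change X.residue x (a - stHom f x c) = 0
  rw [map_sub, ← hb, sub_eq_zero]
  exact Scheme.Γevaluation_naturality_apply f x ((Scheme.ΓSpecIso (CommRingCat.of k)).inv c)

section Main

variable [IsIntegral X]

/-- the derivation on the function field -/
noncomputable def δK [QuasiCompact (pullback.diagonal f)] : Derivation ℤ X.functionField
    ((Omega.sheaf f).presheaf.stalk (genericPoint X)) where
  toLinearMap := (dSt f (genericPoint X)).toIntLinearMap
  map_one_eq_zero' := by
    change dSt f (genericPoint X) 1 = 0
    rw [← map_one (stHom f (genericPoint X)), dSt_stHom]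
  leibniz' := dSt_mul f (genericPoint X)

theorem δK_apply [QuasiCompact (pullback.diagonal f)] (g : X.functionField) :
    δK f g = dSt f (genericPoint X) g := rfl

omit [IsIntegral X] in
theorem finite_of_isGen {L : X.Modules} {x : X} {t : L.presheaf.stalk x} (ht : IsGen L x t) :
    Module.Finite (X.presheaf.stalk x) (L.presheaf.stalk x) :=
  ⟨⟨{t}, by rw [Finset.coe_singleton]; exact ht.span_eq_top⟩⟩

variable [IsAlgClosed k] [Smooth f] [IsSeparated f]

/-- the differential of a uniformizer generates -/
theorem isGen_dSt (hdim : topologicalKrullDim X = 1) {x : X} (hx : x ≠ genericPoint X)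
    {π : X.presheaf.stalk x} (hπ : IsLocalRing.maximalIdeal (X.presheaf.stalk x) = Ideal.span {π}) :
    IsGen (Omega.sheaf f) x (dSt f x π) := by
  have hcl : IsClosed ({x} : Set X) := (CurvesA.CurveDvr.isClosed_singleton_iff hdim x).mpr hx
  have hL := OmegaInv.isInvertible_omega f hdim
  obtain ⟨t₀, ht₀⟩ := exists_isGen hL x
  have := finite_of_isGen ht₀
  exact isGen_of_span_eq_top hL (LocalOrd.span_d_eq_top (stHom f x) (dSt f x) (dSt_mul f x)
    (dSt_stHom f x) (span_range_dSt f x) (fun a => exists_const f hcl a) π hπ)

/-- The order of `dg` at a closed point where the order of `g` is invertible in `k`. -/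
theorem secOrdAt_dSt (hdim : topologicalKrullDim X = 1) {x : X} (hx : x ≠ genericPoint X)
    (g : X.functionField) (hg : g ≠ 0)
    (hn : ((CycAlg.ordFrac (X.presheaf.stalk x) X.functionField g : ℤ) : k) ≠ 0) :
    cl (Omega.sheaf f) (genericPoint X) (dSt f (genericPoint X) g) ≠ 0 ∧
    Cyc.secOrdAt (Omega.sheaf f) (genericPoint X) x (genericPoint_specializes x)
      (cl (Omega.sheaf f) (genericPoint X) (dSt f (genericPoint X) g)) =
      CycAlg.ordFrac (X.presheaf.stalk x) X.functionField g - 1 := by
  have : IsDiscreteValuationRing (X.presheaf.stalk x) :=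
    CurvesA.CurveDvr.isDiscreteValuationRing_stalk f hdim.le x hx
  have hL := OmegaInv.isInvertible_omega f hdim
  obtain ⟨π, hπ⟩ := IsDiscreteValuationRing.exists_irreducible (X.presheaf.stalk x)
  have hgen := isGen_dSt f hdim hx hπ.maximalIdeal_eq
  have h : genericPoint X ⤳ x := genericPoint_specializes x
  have hδ : ∀ r : X.presheaf.stalk x, ∃ c : X.presheaf.stalk x,
      δK f (algebraMap _ X.functionField r) = algebraMap _ X.functionField c •
        δK f (algebraMap _ X.functionField π) := by
    intro r
    obtain ⟨c, hc⟩ := hgen.2 (dSt f x r)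
    refine ⟨c, ?_⟩
    rw [δK_apply, δK_apply, algebraMap_eq h, algebraMap_eq h, algebraMap_eq h,
      ← dSt_specializes f h, ← dSt_specializes f h, ← hc]
    exact stalkSpecializes_smul h c _
  have hn' : IsUnit ((CycAlg.ordFrac (X.presheaf.stalk x) X.functionField g : ℤ) : X.presheaf.stalk x) := by
    rw [← map_intCast (stHom f x)]
    exact (IsUnit.mk0 _ hn).map _
  obtain ⟨w, hw⟩ := DvrOrd.exists_deriv (δK f) hπ hδ hg hn'
  rw [δK_apply, δK_apply, algebraMap_eq h π, ← dSt_specializes f h] at hw
  have hπ0 : algebraMap (X.presheaf.stalk x) X.functionField π ≠ 0 := by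
    rw [ne_eq, IsFractionRing.to_map_eq_zero_iff]; exact hπ.ne_zero
  have hw0 : algebraMap (X.presheaf.stalk x) X.functionField w ≠ 0 := by
    rw [ne_eq, IsFractionRing.to_map_eq_zero_iff]; exact w.ne_zero
  set φ : X.functionField := algebraMap (X.presheaf.stalk x) X.functionField π ^
    (CycAlg.ordFrac (X.presheaf.stalk x) X.functionField g - 1) *
      algebraMap (X.presheaf.stalk x) X.functionField w with hφ
  have hφ0 : φ ≠ 0 := mul_ne_zero (zpow_ne_zero _ hπ0) hw0
  have hw' : dSt f (genericPoint X) g =
      φ • (Omega.sheaf f).presheaf.stalkSpecializes h (dSt f x π) := hw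
  have hcl : cl (Omega.sheaf f) (genericPoint X) (dSt f (genericPoint X) g) =
      φ • cl (Omega.sheaf f) (genericPoint X)
        ((Omega.sheaf f).presheaf.stalkSpecializes h (dSt f x π)) := by
    rw [hw']; exact map_smul _ _ _
  have hres : X.residue (genericPoint X) φ ≠ 0 := fun h0 =>
    hφ0 (residue_injective (h0.trans (map_zero _).symm))
  rw [hcl]
  refine ⟨fun h0 => hres ((smul_cl_eq_zero_iff (hgen.stalkSpecializes hL h) φ).mp h0), ?_⟩
  rw [secOrdAt_smul hL h hgen φ hres, ordAt_residue h φ, hφ,
    ordFrac_mul _ _ (zpow_ne_zero _ hπ0) hw0, DvrOrd.ord_zpow hπ,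
    ordFrac_algebraMap_of_isUnit _ _ w.isUnit, add_zero]

end Main

end Groth.Agent.Pi1.H389.DtOrd
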