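import Groth.Agent.Pi1.H389.EtPts
import Mathlib.AlgebraicGeometry.Morphisms.QuasiFinite

/-!
# Rational points of the punctured line and of its finite étale covers
-/

set_option autoImplicit false
set_option linter.style.haveILetI false
universe u

open CategoryTheory CategoryTheory.Limits AlgebraicGeometry TopologicalSpace Opposite Polynomial

namespace Groth.Agent.Pi1.H389.EtPts

section Line

variable {k : Type u} [Field k] (S : Finset k) (A : Type u) [CommRing A] [Algebra k[X] A]
  [IsLocalization.Away (∏ b ∈ S, (Polynomial.X - C b) : k[X]) A]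

include S in
theorem finiteType_kA : (kA k A).FiniteType := by
  refine RingHom.FiniteType.comp (g := algebraMap k[X] A) (f := (C : k →+* k[X])) ?_ ?_
  · have : Algebra.FiniteType k[X] A :=
      IsLocalization.finiteType_of_monoid_fg (Submonoid.powers (∏ b ∈ S, (Polynomial.X - C b) : k[X])) A
    exact RingHom.finiteType_algebraMap.mpr this
  · have : Algebra.FiniteType k k[X] := inferInstance
    exact RingHom.finiteType_algebraMap.mpr this

include S in
theorem locallyOfFiniteType : LocallyOfFiniteType (Spec.map (CommRingCat.ofHom (kA k A))) := by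
  rw [HasRingHomProperty.Spec_iff (P := @LocallyOfFiniteType)]
  exact finiteType_kA S A

variable {A}

/-- A `k`-homomorphism `A → k` is the evaluation at a point outside `S`. -/
theorem exists_ev (e : A →+* k) (he : e.comp (kA k A) = RingHom.id k) :
    e (algebraMap k[X] A Polynomial.X) ∉ S ∧
      e (algebraMap k[X] A (Polynomial.X - C (e (algebraMap k[X] A Polynomial.X)))) = 0 := by
  have h1 : ∀ c : k, e (algebraMap k[X] A (Polynomial.X - C c)) = e (algebraMap k[X] A Polynomial.X) - c := by
    intro c
    rw [map_sub, map_sub]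
    congr 1
    exact RingHom.congr_fun he c
  refine ⟨fun h => ?_, by rw [h1, sub_self]⟩
  have h2 := (isUnit_sub S A h).map e
  rw [h1, sub_self] at h2
  exact not_isUnit_zero h2

end Line

section Points

variable {k : Type u} [Field k] {X : Scheme.{u}} (f : X ⟶ Spec (CommRingCat.of k))
  (S : Finset k) {A : Type u} [CommRing A] [Algebra k[X] A]
  [IsLocalization.Away (∏ b ∈ S, (Polynomial.X - C b) : k[X]) A]
  {V : X.Opens} (p : (V : Scheme.{u}) ⟶ Spec (CommRingCat.of A))
  (hp : p ≫ Spec.map (CommRingCat.ofHom (kA k A)) = V.ι ≫ f)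

include S in
/-- a point of `V` lies over the point `e` of the line if and only if `T - e(T)` vanishes there -/
theorem apply_eq_iff (e : A →+* k) (he : e.comp (kA k A) = RingHom.id k) (x : X) (hx : x ∈ V) :
    p ⟨x, hx⟩ = Spec.map (CommRingCat.ofHom e) (IsLocalRing.closedPoint k) ↔
      (ρ p x hx).hom (algebraMap k[X] A (Polynomial.X - C (e (algebraMap k[X] A Polynomial.X)))) ∈
        IsLocalRing.maximalIdeal (X.presheaf.stalk x) := by
  have h0 := (exists_ev S e he).2
  have h1 : (Spec.map (CommRingCat.ofHom e) (IsLocalRing.closedPoint k)).asIdeal = RingHom.ker e := by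
    change (IsLocalRing.maximalIdeal k).comap e = _
    rw [IsLocalRing.maximalIdeal_eq_bot]
    rfl
  have h2 : RingHom.ker e =
      Ideal.span {algebraMap k[X] A (Polynomial.X - C (e (algebraMap k[X] A Polynomial.X)))} := by
    have : (RingHom.ker e).IsPrime := RingHom.ker_isPrime e
    exact asIdeal_eq_span S A ((RingHom.mem_ker).mpr h0)
  constructor
  · intro h
    have h3 : (p ⟨x, hx⟩).asIdeal = RingHom.ker e := by rw [h, h1]
    rw [asIdeal_eq p ⟨x, hx⟩] at h3
    have h4 : algebraMap k[X] A (Polynomial.X - C (e (algebraMap k[X] A Polynomial.X))) ∈ RingHom.ker e :=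
      (RingHom.mem_ker).mpr h0
    rw [← h3] at h4
    exact h4
  · intro h
    refine PrimeSpectrum.ext ?_
    rw [h1, h2]
    refine asIdeal_eq_span S A ?_
    rw [asIdeal_eq p ⟨x, hx⟩]
    exact h

variable [IsAlgClosed k] [LocallyOfFiniteType f]

include hp S in
/-- The `k`-points of `V` over a `k`-point of the line are the closed points of `X` in `V` over it. -/
theorem card_points (e : A →+* k) (he : e.comp (kA k A) = RingHom.id k) :
    Nat.card {s : Spec (CommRingCat.of k) ⟶ V // s ≫ p = Spec.map (CommRingCat.ofHom e)} =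
      Nat.card {x : X // ∃ hx : x ∈ V, IsClosed ({x} : Set X) ∧
        (ρ p x hx).hom (algebraMap k[X] A (Polynomial.X - C (e (algebraMap k[X] A Polynomial.X)))) ∈
        IsLocalRing.maximalIdeal (X.presheaf.stalk x)} := by
  have hSe : Spec.map (CommRingCat.ofHom e) ≫ Spec.map (CommRingCat.ofHom (kA k A)) = 𝟙 _ := by
    rw [← Spec.map_comp, ← CommRingCat.ofHom_comp, he]
    exact Spec.map_id _
  have hsec : ∀ s : Spec (CommRingCat.of k) ⟶ V, s ≫ p = Spec.map (CommRingCat.ofHom e) →
      (s ≫ V.ι) ≫ f = 𝟙 _ := by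
    intro s hs
    rw [Category.assoc, ← hp, reassoc_of% hs, hSe]
  have := locallyOfFiniteType S A
  refine Nat.card_congr (Equiv.ofBijective (fun s => ⟨(s.1 ≫ V.ι) (IsLocalRing.closedPoint k), ?_, ?_, ?_⟩)
    ⟨?_, ?_⟩)
  · rw [Scheme.Hom.comp_apply]
    exact (s.1 (IsLocalRing.closedPoint k)).2
  · exact (pointEquivClosedPoint f ⟨s.1 ≫ V.ι, hsec s.1 s.2⟩).2
  · refine (apply_eq_iff S p e he _ _).mp ?_
    have h1 := congr($(s.2) (IsLocalRing.closedPoint k))
    exact h1
  · rintro ⟨s, hs⟩ ⟨s', hs'⟩ h
    have h1 := congrArg (fun z => z.1) h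
    have h2 := ext_of_apply_closedPoint_eq f (hsec s hs) (hsec s' hs') h1
    exact Subtype.ext ((cancel_mono V.ι).mp h2)
  · rintro ⟨x, hx, hcl, hmem⟩
    let s₀ : Spec (CommRingCat.of k) ⟶ X := pointOfClosedPoint f x hcl
    have hrange : Set.range s₀ ⊆ Set.range V.ι := by
      rintro _ ⟨z, rfl⟩
      rw [pointOfClosedPoint_apply, Scheme.Opens.range_ι]
      exact hx
    let s : Spec (CommRingCat.of k) ⟶ V := IsOpenImmersion.lift V.ι s₀ hrange
    have hs : s ≫ V.ι = s₀ := IsOpenImmersion.lift_fac _ _ _
    have hsx : ∀ z, s z = ⟨x, hx⟩ := fun z => by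
      apply Subtype.ext
      have := congr($hs z)
      rw [Scheme.Hom.comp_apply, pointOfClosedPoint_apply] at this
      exact this
    refine ⟨⟨s, ?_⟩, ?_⟩
    · refine ext_of_apply_closedPoint_eq (Spec.map (CommRingCat.ofHom (kA k A))) ?_ hSe ?_
      · rw [Category.assoc, hp, reassoc_of% hs, pointOfClosedPoint_comp]
      · rw [Scheme.Hom.comp_apply, hsx]
        exact (apply_eq_iff S p e he x hx).mpr hmem
    · apply Subtype.ext
      change (s ≫ V.ι) (IsLocalRing.closedPoint k) = x
      rw [hs, pointOfClosedPoint_apply]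

end Points

end Groth.Agent.Pi1.H389.EtPts
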