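import Groth.Agent.Pi1.H389.EtPts
import Mathlib.AlgebraicGeometry.Morphisms.Finite

/-!
# The points outside the domain of a finite map to the punctured line

`X` an integral scheme separated over `Spec k`, `V ⊆ X` a nonempty open subset,
`p : V ⟶ Spec A` finite over `k`, `A = k[T][1 / ∏_{b ∈ S} (T - b)]`.  If `x` is a point with values in `k`,
`O_{X, x}` is a valuation ring and `T` is regular at `x` then either `x ∈ V` or `T(x) ∈ S`.
-/

set_option autoImplicit false
set_option linter.style.haveILetI false
universe u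

open CategoryTheory CategoryTheory.Limits AlgebraicGeometry TopologicalSpace Opposite Polynomial

namespace Groth.Agent.Pi1.H389.EtPts

variable {k : Type u} [Field k] {X : Scheme.{u}} (f : X ⟶ Spec (CommRingCat.of k))
  (S : Finset k) {A : Type u} [CommRing A] [Algebra k[X] A]
  [IsLocalization.Away (∏ b ∈ S, (Polynomial.X - C b) : k[X]) A]
  {V : X.Opens} (p : (V : Scheme.{u}) ⟶ Spec (CommRingCat.of A))
  (hp : p ≫ Spec.map (CommRingCat.ofHom (kA k A)) = V.ι ≫ f)

include hp in
/-- the valuative step -/
theorem mem_of_value [IsIntegral X] [IsSeparated f] [IsProper p] (hη : genericPoint X ∈ V)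
    (x : X) [ValuationRing (X.presheaf.stalk x)] (τ : X.presheaf.stalk x)
    (hτ : X.presheaf.stalkSpecializes (genericPoint_specializes x) τ =
      (ρ p (genericPoint X) hη).hom (algebraMap k[X] A Polynomial.X))
    (c : k) (hc : τ - st f x c ∈ IsLocalRing.maximalIdeal (X.presheaf.stalk x)) (hcS : c ∉ S) : x ∈ V := by
  let O := X.presheaf.stalk x
  -- the ring map `A → O_{X, x}`
  let φ₀ : k[X] →+* O := Polynomial.eval₂RingHom (st f x) τ
  have hφ₀ : ∀ b : k, φ₀ (Polynomial.X - C b) = τ - st f x b := fun b => by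
    simp [φ₀]
  have hunit : IsUnit (φ₀ (∏ b ∈ S, (Polynomial.X - C b))) := by
    rw [map_prod]
    refine (IsUnit.prod_iff).mpr fun b hb => ?_
    rw [hφ₀]
    by_contra hcon
    have h1 : τ - st f x b ∈ IsLocalRing.maximalIdeal O := hcon
    have h2 := Ideal.sub_mem _ h1 hc
    have h3 : (τ - st f x b) - (τ - st f x c) = st f x (c - b) := by rw [map_sub]; ring
    rw [h3] at h2
    exact (IsLocalRing.mem_maximalIdeal _).mp h2
      ((IsUnit.mk0 _ (sub_ne_zero.mpr (fun h : c = b => hcS (by rw [h]; exact hb)))).map _)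
  let ψ : A →+* O := IsLocalization.Away.lift (∏ b ∈ S, (Polynomial.X - C b) : k[X]) hunit
  have hψ : ∀ q : k[X], ψ (algebraMap k[X] A q) = φ₀ q := fun q =>
    IsLocalization.Away.lift_eq _ hunit q
  have hcomp : ρ p (genericPoint X) hη = CommRingCat.ofHom ψ ≫ CommRingCat.ofHom (algebraMap O X.functionField) := by
    ext a
    change (ρ p (genericPoint X) hη).hom a = algebraMap O X.functionField (ψ a)
    refine RingHom.congr_fun (f := (ρ p (genericPoint X) hη).hom)
      (g := (algebraMap O X.functionField).comp ψ) ?_ a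
    refine IsLocalization.ringHom_ext (Submonoid.powers (∏ b ∈ S, (Polynomial.X - C b) : k[X])) ?_
    refine Polynomial.ringHom_ext (fun a => ?_) ?_
    · change (ρ p (genericPoint X) hη).hom (kA k A a) = algebraMap O X.functionField (ψ (algebraMap k[X] A (C a)))
      rw [ρ_kA f p hp, hψ, show φ₀ (C a) = st f x a by simp [φ₀]]
      exact (st_specializes f (genericPoint_specializes x) a).symm
    · change (ρ p (genericPoint X) hη).hom (algebraMap k[X] A Polynomial.X) =
        algebraMap O X.functionField (ψ (algebraMap k[X] A Polynomial.X))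
      rw [← hτ, hψ, show φ₀ Polynomial.X = τ by simp [φ₀]]
      rfl
  have hsq : V.fromSpecStalkOfMem (genericPoint X) hη ≫ p =
      Spec.map (CommRingCat.ofHom (algebraMap O X.functionField)) ≫ Spec.map (CommRingCat.ofHom ψ) := by
    rw [fromSpecStalkOfMem_comp, hcomp, Spec.map_comp]
  have hval : ValuativeCriterion p := by
    have h1 : IsProper p := inferInstance
    rw [IsProper.eq_valuativeCriterion] at h1
    exact h1.1.1.1
  obtain ⟨l, hl₁, hl₂⟩ := (hval.existence (ValuativeCommSq.mk (f := p) O X.functionField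
    (V.fromSpecStalkOfMem (genericPoint X) hη) (Spec.map (CommRingCat.ofHom ψ)) ⟨hsq⟩)).exists_lift
  dsimp only at hl₁ hl₂
  have hψk : CommRingCat.ofHom (kA k A) ≫ CommRingCat.ofHom ψ = CommRingCat.ofHom (st f x) := by
    ext a
    change ψ (algebraMap k[X] A (C a)) = st f x a
    rw [hψ]
    simp [φ₀]
  have hdom : IsDominant (Spec.map (CommRingCat.ofHom (algebraMap O X.functionField))) := by
    refine ⟨(PrimeSpectrum.denseRange_comap_iff_ker_le_nilRadical (algebraMap O X.functionField)).mpr ?_⟩
    rw [(RingHom.injective_iff_ker_eq_bot _).mp (IsFractionRing.injective O X.functionField)]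
    exact bot_le
  have hl₃ : l ≫ V.ι = X.fromSpecStalk x := by
    refine ext_of_isDominant_of_isSeparated f ?_
      (Spec.map (CommRingCat.ofHom (algebraMap O X.functionField))) ?_
    · rw [Category.assoc, ← hp, reassoc_of% hl₂, ← Spec.map_comp, hψk, fromSpecStalk_comp]
    · rw [reassoc_of% hl₁, Scheme.Opens.fromSpecStalkOfMem_ι]
      exact (Scheme.SpecMap_stalkSpecializes_fromSpecStalk (genericPoint_specializes x)).symm
  have h1 : (l ≫ V.ι) (IsLocalRing.closedPoint O) = x := by
    rw [hl₃]; exact X.fromSpecStalk_closedPoint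
  rw [← h1, Scheme.Hom.comp_apply]
  exact (l (IsLocalRing.closedPoint O)).2

end Groth.Agent.Pi1.H389.EtPts
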