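import Groth.Agent.Pi1.H389.Dom
import Groth.Agent.CurvesA.CurveDvr
import Groth.Prelude.Def_Curve
import Mathlib.RingTheory.IntegralClosure.IntegrallyClosed
import Mathlib.RingTheory.DiscreteValuationRing.Basic

/-!
# Sections of a normal scheme as an integral closure
-/

set_option autoImplicit false
set_option linter.style.haveILetI false
universe u v

open CategoryTheory AlgebraicGeometry TopologicalSpace Opposite

namespace Groth.Agent.Pi1.H389.IntCl

variable {X : Scheme.{u}}

/-- the restriction of sections -/
noncomputable abbrev res {V U : X.Opens} (h : V ≤ U) : Γ(X, U) →+* Γ(X, V) :=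
  (X.presheaf.map (homOfLE h).op).hom

variable [IsIntegral X]

theorem res_injective {V U : X.Opens} (h : V ≤ U) [hV : Nonempty V] : Function.Injective (res h) := by
  have hη : genericPoint X ∈ V := by
    obtain ⟨x⟩ := hV
    exact (genericPoint_specializes x.1).mem_open V.isOpen x.2
  intro a b hab
  apply germ_injective_of_isIntegral X (genericPoint X) (U := U) (h hη)
  have h1 := congrArg (X.presheaf.germ V (genericPoint X) hη) hab
  refine Eq.trans ?_ (h1.trans ?_)
  · exact (X.presheaf.germ_res_apply (homOfLE h) (genericPoint X) hη a).symm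
  · exact X.presheaf.germ_res_apply (homOfLE h) (genericPoint X) hη b

/-- On a normal integral scheme, a section over `V` which is integral over functions on `U ⊇ V` extends to `U`. -/
theorem exists_lift {V U : X.Opens} (h : V ≤ U) [hV : Nonempty V]
    (hn : ∀ x ∈ U, IsIntegrallyClosed (X.presheaf.stalk x)) {R : Type v} [CommRing R] (φ : R →+* Γ(X, U))
    (b : Γ(X, V)) (hb : ((res h).comp φ).IsIntegralElem b) : ∃ a, res h a = b := by
  have hη : genericPoint X ∈ V := by
    obtain ⟨x⟩ := hV
    exact (genericPoint_specializes x.1).mem_open V.isOpen x.2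
  obtain ⟨W, hηW, a, ha, hW⟩ := Dom.exists_dom (X.presheaf.germ V (genericPoint X) hη b)
  have hUW : U ≤ W := by
    intro x hx
    refine hW x ?_
    have := hn x hx
    have h1 : IsIntegral (X.presheaf.stalk x) (X.presheaf.germ V (genericPoint X) hη b) := by
      obtain ⟨p, hp, hpb⟩ := hb
      refine ⟨p.map ((X.presheaf.germ U x hx).hom.comp φ), hp.map _, ?_⟩
      have h2 : (X.presheaf.germ V (genericPoint X) hη) (Polynomial.eval₂ ((res h).comp φ) b p) = 0 := by
        rw [hpb, map_zero]
      refine Eq.trans ?_ h2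
      rw [Polynomial.eval₂_map]
      refine Eq.trans ?_ (Polynomial.hom_eval₂ p ((res h).comp φ) (X.presheaf.germ V (genericPoint X) hη).hom b).symm
      congr 1
      ext r
      change algebraMap (X.presheaf.stalk x) X.functionField (X.presheaf.germ U x hx (φ r)) =
        X.presheaf.germ V (genericPoint X) hη (res h (φ r))
      rw [Dom.algebraMap_germ (h hη) hx]
      exact (X.presheaf.germ_res_apply (homOfLE h) (genericPoint X) hη (φ r)).symm
    obtain ⟨r, hr⟩ := IsIntegrallyClosed.isIntegral_iff.mp h1
    exact ⟨r, hr⟩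
  refine ⟨res hUW a, ?_⟩
  apply germ_injective_of_isIntegral X (genericPoint X) (U := V) hη
  rw [← ha]
  refine Eq.trans (X.presheaf.germ_res_apply (homOfLE h) (genericPoint X) hη _) ?_
  exact X.presheaf.germ_res_apply (homOfLE hUW) (genericPoint X) (h hη) a

/-- On a normal integral scheme, if `R → Γ(X, U)` is integral then `Γ(X, U)` is the integral closure of `R` in
`Γ(X, V)` for `V ⊆ U`. -/
theorem isIntegralClosure {V U : X.Opens} (h : V ≤ U) [Nonempty V]
    (hn : ∀ x ∈ U, IsIntegrallyClosed (X.presheaf.stalk x)) {R : Type v} [CommRing R] (φ : R →+* Γ(X, U))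
    (hφ : φ.IsIntegral) [Algebra R Γ(X, V)] [Algebra Γ(X, U) Γ(X, V)]
    (h1 : ∀ r : R, algebraMap R Γ(X, V) r = res h (φ r)) (h2 : ∀ a : Γ(X, U), algebraMap Γ(X, U) Γ(X, V) a = res h a) :
    IsIntegralClosure Γ(X, U) R Γ(X, V) where
  algebraMap_injective := by
    have h3 : (algebraMap Γ(X, U) Γ(X, V) : Γ(X, U) → Γ(X, V)) = res h := funext h2
    rw [h3]
    exact res_injective h
  isIntegral_iff {b} := by
    have h3 : algebraMap R Γ(X, V) = (res h).comp φ := RingHom.ext h1
    constructor
    · intro hb
      obtain ⟨a, ha⟩ := exists_lift h hn φ b (by rw [← h3]; exact hb)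
      exact ⟨a, (h2 a).trans ha⟩
    · rintro ⟨a, rfl⟩
      change (algebraMap R Γ(X, V)).IsIntegralElem (algebraMap Γ(X, U) Γ(X, V) a)
      rw [h3, h2]
      obtain ⟨p, hp, hpa⟩ := hφ a
      refine ⟨p, hp, ?_⟩
      rw [← Polynomial.hom_eval₂, hpa, map_zero]

/-- The stalks of a smooth proper curve are integrally closed. -/
theorem isIntegrallyClosed_stalk {k : Type u} [Field k] [IsAlgClosed k] {f : X ⟶ Spec (CommRingCat.of k)}
    (hX : Curve.IsSmoothProperCurve k X f) (x : X) : IsIntegrallyClosed (X.presheaf.stalk x) := by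
  have : IsProper f := hX.1
  have : Smooth f := hX.2.1
  have hdim : topologicalKrullDim X = 1 := hX.2.2.2
  by_cases hx : x = genericPoint X
  · subst hx
    have h1 : IsIntegrallyClosed X.functionField := inferInstance
    exact h1
  · have := CurvesA.CurveDvr.isDiscreteValuationRing_stalk f hdim.le x hx
    infer_instance

end Groth.Agent.Pi1.H389.IntCl
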