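import Groth.Agent.Pi1.H418.EtaleAway
import Groth.Agent.Pi1.H389.ChartFin
import Groth.Prelude.Def_Curve

/-!
# Two-chart data of a smooth proper curve

A smooth proper curve over an algebraically closed field of characteristic zero has a finite map to the projective
line which is étale outside finitely many points, in the two-chart form `P1Data.Data`.
-/

set_option autoImplicit false
set_option linter.style.haveILetI false
universe u

open CategoryTheory CategoryTheory.Limits AlgebraicGeometry TopologicalSpace Opposite Polynomial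
open Groth.Agent.Pi1.H387.P1Data Groth.Agent.Pi1.H418.EtaleAway

namespace Groth.Agent.Pi1.H389.TwoChart

/-- A finite extension of domains over `K[T]` is étale away from finitely many points of the line. -/
theorem exists_etale (K : Type u) [Field K] [IsAlgClosed K] [CharZero K] (B : Type u) [CommRing B] [IsDomain B]
    [Algebra K[X] B] [Module.Finite K[X] B] [FaithfulSMul K[X] B] :
    ∃ s : Finset K, ∀ (B' : Type u) [CommRing B'] [Algebra B B']
      [IsLocalization.Away (algebraMap K[X] B (∏ b ∈ s, (Polynomial.X - C b))) B'],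
      ((algebraMap B B').comp (algebraMap K[X] B)).Etale := by
  obtain ⟨f, hf0, hf⟩ := exists_basicOpen_subset K[X] B
  obtain ⟨s, n, hs⟩ := exists_dvd_lin_pow f hf0
  have : Algebra.FinitePresentation K[X] B := Algebra.FinitePresentation.of_finiteType.mp inferInstance
  have h3 : Algebra.Etale K[X] (Localization.Away (algebraMap K[X] B (lin s))) := by
    rw [← Algebra.basicOpen_subset_etaleLocus_iff_etale]
    refine subset_trans ?_ hf
    intro x hx hx'
    refine hx ?_
    have h4 : (algebraMap K[X] B (lin s)) ^ n ∈ x.asIdeal := by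
      rw [← map_pow]
      exact Ideal.mem_of_dvd _ (map_dvd (algebraMap K[X] B) hs) hx'
    exact x.isPrime.mem_of_pow_mem n h4
  refine ⟨s, fun B' _ _ hB' => ?_⟩
  letI : Algebra K[X] B' := ((algebraMap B B').comp (algebraMap K[X] B)).toAlgebra
  haveI : IsScalarTower K[X] B B' := IsScalarTower.of_algebraMap_eq fun _ => rfl
  haveI : IsLocalization.Away (algebraMap K[X] B (lin s)) B' := hB'
  have h5 : Algebra.Etale K[X] B' := Algebra.Etale.of_equiv
    ((IsLocalization.algEquiv (Submonoid.powers (algebraMap K[X] B (lin s)))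
      (Localization.Away (algebraMap K[X] B (lin s))) B').restrictScalars K[X])
  exact RingHom.etale_algebraMap.mpr h5

/-- An element of a domain which is not a constant is transcendental over an algebraically closed field. -/
theorem eval₂_injective {K : Type u} [Field K] [IsAlgClosed K] {B : Type u} [CommRing B] [IsDomain B]
    (κ : K →+* B) (b : B) (hb : ∀ c : K, b ≠ κ c) : Function.Injective (Polynomial.eval₂RingHom κ b) := by
  rw [injective_iff_map_eq_zero]
  intro f hf
  by_contra hf0
  obtain ⟨s, n, hs⟩ := exists_dvd_lin_pow f hf0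
  have h1 : (Polynomial.eval₂RingHom κ b) (lin s ^ n) = 0 := by
    obtain ⟨q, hq⟩ := hs
    rw [hq, map_mul, hf, zero_mul]
  rw [map_pow, lin, map_prod] at h1
  have h2 := eq_zero_of_pow_eq_zero h1
  rw [Finset.prod_eq_zero_iff] at h2
  obtain ⟨c, -, hc⟩ := h2
  refine hb c (sub_eq_zero.mp ?_)
  simpa using hc

variable {k : Type u} [Field k] {X : Scheme.{u}} [X.Over (Spec (CommRingCat.of k))]

/-- **Two-chart data exist.** -/
theorem exists_data [IsAlgClosed k] [CharZero k]
    (hX : Curve.IsSmoothProperCurve k X (X ↘ Spec (CommRingCat.of k))) : Nonempty (Data k X) := by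
  have : IsProper (X ↘ Spec (CommRingCat.of k)) := hX.1
  have : Smooth (X ↘ Spec (CommRingCat.of k)) := hX.2.1
  have : IsIntegral X := hX.2.2.1
  have hdim : topologicalKrullDim X = 1 := hX.2.2.2
  set f := X ↘ Spec (CommRingCat.of k) with hf
  have hdvr : ∀ x : X, x ≠ genericPoint X → IsDiscreteValuationRing (X.presheaf.stalk x) :=
    fun x hx => CurvesA.CurveDvr.isDiscreteValuationRing_stalk f hdim.le x hx
  have hst : ∀ (x : X) (c : k), algebraMap (X.presheaf.stalk x) X.functionField (EtPts.st f x c) =
      EtPts.st f (genericPoint X) c := fun x c => EtPts.st_specializes f (genericPoint_specializes x) c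
  -- a nonconstant function
  obtain ⟨g, hg0, hg⟩ : ∃ g : X.functionField, g ≠ 0 ∧ ∀ c : k, g ≠ EtPts.st f (genericPoint X) c := by
    obtain ⟨x, hx⟩ := CurvesA.CurveDvr.exists_ne_genericPoint hdim
    have := hdvr x hx
    obtain ⟨π, hπ⟩ := IsDiscreteValuationRing.exists_irreducible (X.presheaf.stalk x)
    have hinj := IsFractionRing.injective (X.presheaf.stalk x) X.functionField
    refine ⟨algebraMap _ _ π, fun h => hπ.ne_zero (hinj (h.trans (map_zero _).symm)), fun c hc => ?_⟩
    rw [← hst x] at hc
    have h1 : π = EtPts.st f x c := hinj hc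
    by_cases hc0 : c = 0
    · rw [hc0, map_zero] at h1
      exact hπ.ne_zero h1
    · exact hπ.not_isUnit (h1 ▸ (IsUnit.mk0 _ hc0).map (EtPts.st f x))
  have hg' : ∀ c : k, g⁻¹ ≠ EtPts.st f (genericPoint X) c := by
    intro c hc
    refine hg c⁻¹ ?_
    rw [← inv_inv g, hc, map_inv₀]
  obtain ⟨W, hη, a, ha, hW⟩ := Dom.exists_dom g
  obtain ⟨W', hη', a', ha', hW'⟩ := Dom.exists_dom g⁻¹
  -- the domains cover
  have hcov : ∀ x : X, x ∈ W ∨ x ∈ W' := by
    intro x
    by_cases hx : x = genericPoint X
    · exact Or.inl (hx ▸ hη)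
    have := hdvr x hx
    rcases ValuationRing.isInteger_or_isInteger (X.presheaf.stalk x) g with h | h
    · exact Or.inl (hW x h)
    · exact Or.inr (hW' x h)
  -- a unit germ lies in the other domain
  have hunit : ∀ {U U' : X.Opens} (hU : genericPoint X ∈ U) (b : Γ(X, U)) (g' : X.functionField)
      (hb : X.presheaf.germ U (genericPoint X) hU b = g')
      (_ : ∀ x : X, (∃ r : X.presheaf.stalk x, algebraMap (X.presheaf.stalk x) X.functionField r = g'⁻¹) → x ∈ U'),
      X.basicOpen b ≤ U' := by
    intro U U' hU b g' hb hU' x hx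
    have hxU : x ∈ U := X.basicOpen_le b hx
    rw [Scheme.mem_basicOpen X _ x hxU] at hx
    obtain ⟨v, hv⟩ := hx
    refine hU' x ⟨((v⁻¹ : (X.presheaf.stalk x)ˣ) : X.presheaf.stalk x), ?_⟩
    rw [← hb, ← Dom.algebraMap_germ hU hxU b, ← hv]
    exact map_units_inv _ v
  have hb1 : X.basicOpen a ≤ W' := hunit hη a g ha hW'
  have hb2 : X.basicOpen a' ≤ W := hunit hη' a' g⁻¹ ha' (by rw [inv_inv]; exact hW)
  have haa : X.presheaf.germ W (genericPoint X) hη a * X.presheaf.germ W' (genericPoint X) hη' a' = 1 := by
    rw [ha, ha', mul_inv_cancel₀ hg0]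
  -- the product of the coordinates
  have hstalk : ∀ (x : X) (hx : x ∈ W) (hx' : x ∈ W'),
      X.presheaf.germ W x hx a * X.presheaf.germ W' x hx' a' = 1 := by
    intro x hx hx'
    apply IsFractionRing.injective (X.presheaf.stalk x) X.functionField
    rw [map_mul, Dom.algebraMap_germ hη hx, Dom.algebraMap_germ hη' hx', map_one, haa]
  obtain ⟨hWa, hWf⟩ := ChartFin.isAffineOpen_and_finite hdim hη a hη' a' haa
    (fun c => by rw [ha]; exact hg c) (fun x hx => (hcov x).resolve_left hx) hb2 (k := k)
  obtain ⟨hWa', hWf'⟩ := ChartFin.isAffineOpen_and_finite hdim hη' a' hη a (by rw [mul_comm]; exact haa)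
    (fun c => by rw [ha']; exact hg' c) (fun x hx => (hcov x).resolve_right hx) hb1 (k := k)
  have : Nonempty W := ⟨⟨_, hη⟩⟩
  have hdomW : IsDomain Γ(X, W) := inferInstance
  -- injectivity
  have hinj : Function.Injective (polyU k X W a) := by
    refine eval₂_injective (strU k X W) a fun c hc => hg c ?_
    rw [← ha, hc]
    exact ChartFin.germ_strU W (genericPoint X) hη c
  letI : Algebra k[X] Γ(X, W) := (polyU k X W a).toAlgebra
  haveI : Module.Finite k[X] Γ(X, W) := hWf
  haveI : FaithfulSMul k[X] Γ(X, W) := (faithfulSMul_iff_algebraMap_injective k[X] Γ(X, W)).mpr hinj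
  obtain ⟨s, hs⟩ := exists_etale k Γ(X, W)
  have hloc := hWa.isLocalization_basicOpen (polyU k X W a (∏ b ∈ s, (Polynomial.X - Polynomial.C b)))
  exact ⟨{
    W0 := W
    Wi := W'
    hW0 := hWa
    hWi := hWa'
    cover := by
      rw [eq_top_iff]
      intro x _
      exact hcov x
    t := a
    s := a'
    ht := by
      refine le_antisymm (le_inf (X.basicOpen_le a) hb1) ?_
      rintro x ⟨hx, hx'⟩
      rw [Scheme.mem_basicOpen X _ x hx]
      exact IsUnit.of_mul_eq_one _ (hstalk x hx hx')
    hs := by
      refine le_antisymm (le_inf hb2 (X.basicOpen_le a')) ?_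
      rintro x ⟨hx, hx'⟩
      rw [Scheme.mem_basicOpen X _ x hx']
      exact IsUnit.of_mul_eq_one_right _ (hstalk x hx hx')
    hts := by
      apply germ_injective_of_isIntegral X (genericPoint X) (U := W ⊓ W') ⟨hη, hη'⟩
      rw [map_mul, map_one, ← haa]
      congr 1
      · exact X.presheaf.germ_res_apply (homOfLE inf_le_left) (genericPoint X) ⟨hη, hη'⟩ _
      · exact X.presheaf.germ_res_apply (homOfLE inf_le_right) (genericPoint X) ⟨hη, hη'⟩ _
    fin0 := hWf
    fini := hWf'
    inj0 := hinj
    S := s
    etale := hs Γ(X, X.basicOpen (polyU k X W a (∏ b ∈ s, (Polynomial.X - Polynomial.C b)))) }⟩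

end Groth.Agent.Pi1.H389.TwoChart
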